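/-
The commuting involution graph of `SU_3(q)`, `q` odd.
-/
import Mathlib
import Cfsg.Agent.Lib.Witt.SU3Invol

set_option autoImplicit false

namespace Cfsg.Agent.Lib.Witt.SU3Graph

open Module Matrix Cfsg
open Cfsg.Agent.Lib.HermCount.Field Cfsg.Agent.Lib.HermCount.Space Cfsg.Agent.Lib.HermCount.Lines
open Cfsg.Agent.Lib.Witt.HermModel Cfsg.Agent.Lib.Witt.SU3Invol

universe u

variable {F : Type u} [Field F] [Fintype F] {q : ℕ}

variable (hF : Fintype.card F = q ^ 2) (h2 : (2 : F) ≠ 0)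

theorem herm_self (w : Fin 3 → F) :
    hermForm 3 F q w w = w 0 ^ (q + 1) + w 1 ^ (q + 1) + w 2 ^ (q + 1) := by
  simp only [hermForm, Fin.sum_univ_three, pow_succ]
  ring

theorem herm2_self (k : Fin 2 → F) : hermForm 2 F q k k = k 0 ^ (q + 1) + k 1 ^ (q + 1) := by
  simp only [hermForm, Fin.sum_univ_two, pow_succ]
  ring

include hF in
theorem norm_fix (x : F) : (x ^ (q + 1)) ^ q = x ^ (q + 1) := by
  rw [pow_succ, mul_pow, frob_frob hF]
  ring

include hF in
theorem sum_fix (x y : F) (hx : x ^ q = x) (hy : y ^ q = y) : (x + y) ^ q = x + y := by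
  rw [frob_add hF, hx, hy]

include h2 in
theorem refl_eq_t₀_iff (w : Fin 3 → F) (hw : hermForm 3 F q w w = 1) :
    refl hF w hw = t₀ hF ↔ w 1 = 0 ∧ w 2 = 0 := by
  have hq := two_le hF
  constructor
  · intro h
    obtain ⟨c, hc, hcw⟩ := (refl_eq_iff hF h2 _ _ (herm_e₀ hF) hw).1 h.symm
    rw [hcw]
    simp [e₀]
  · rintro ⟨h1, h3⟩
    symm
    apply (refl_eq_iff hF h2 _ _ (herm_e₀ hF) hw).2
    refine ⟨w 0, ?_, ?_⟩
    · rw [herm_self, h1, h3, zero_pow (by omega), add_zero, add_zero] at hw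
      exact hw
    · ext i
      fin_cases i
      · simp [e₀]
      · simp [e₀, h1]
      · simp [e₀, h3]

include h2 in
theorem commute_t₀_iff (w : Fin 3 → F) (hw : hermForm 3 F q w w = 1) :
    Commute (t₀ hF) (refl hF w hw) ↔ (w 1 = 0 ∧ w 2 = 0) ∨ w 0 = 0 := by
  have := commute_refl_iff hF h2 e₀ w (herm_e₀ hF) hw
  rw [herm_e₀_right hF] at this
  change Commute (t₀ hF) _ ↔ t₀ hF = _ ∨ _ at this
  rw [this, eq_comm, refl_eq_t₀_iff hF h2]

include hF h2 in
theorem r1_iff (w : Fin 3 → F) (hw : hermForm 3 F q w w = 1) :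
    (refl hF w hw ≠ t₀ hF ∧ Commute (t₀ hF) (refl hF w hw)) ↔ w 0 = 0 := by
  have hq := two_le hF
  rw [commute_t₀_iff hF h2, Ne, refl_eq_t₀_iff hF h2]
  constructor
  · rintro ⟨h1, h3 | h3⟩
    · exact absurd h3 h1
    · exact h3
  · intro h0
    refine ⟨?_, Or.inr h0⟩
    rintro ⟨h1, h3⟩
    rw [herm_self, h0, h1, h3, zero_pow (by omega), add_zero, add_zero] at hw
    exact zero_ne_one hw

/-- The second and third coordinates. -/
def tail (w : Fin 3 → F) : Fin 2 → F := ![w 1, w 2]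

include hF in
/-- Norm surjectivity: a vector orthogonal to `e₀` and to `w`. -/
theorem exists_perp_of_ne (w : Fin 3 → F) (hs : w 1 ^ (q + 1) + w 2 ^ (q + 1) ≠ 0) :
    ∃ v : Fin 3 → F, hermForm 3 F q v v = 1 ∧ v 0 = 0 ∧ hermForm 3 F q w v = 0 := by
  have hq := two_le hF
  set s := w 1 ^ (q + 1) + w 2 ^ (q + 1) with hsdef
  have hsq : s ^ q = s := sum_fix hF _ _ (norm_fix hF _) (norm_fix hF _)
  have hsi : s⁻¹ ^ q = s⁻¹ := by rw [inv_pow, hsq]
  have hcard := card_norm_fiber hF s⁻¹ hsi (inv_ne_zero hs)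
  have hpos : 0 < Nat.card {a : F // a ^ (q + 1) = s⁻¹} := by
    rw [hcard]
    omega
  obtain ⟨⟨b, hb⟩⟩ := Nat.card_pos_iff.1 hpos |>.1
  refine ⟨![0, b * w 2 ^ q, -(b * w 1 ^ q)], ?_, rfl, ?_⟩
  · rw [herm_self]
    have h0 : (0 : F) ^ (q + 1) = 0 := zero_pow (by omega)
    simp only [Matrix.cons_val_zero, Matrix.cons_val_one, Matrix.cons_val, h0, zero_add]
    have hneg : ∀ x : F, (-x) ^ (q + 1) = x ^ (q + 1) := by
      intro x
      rw [pow_succ, pow_succ]
      have := (frobHom hF).map_neg x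
      change (-x) ^ q = -(x ^ q) at this
      rw [this]
      ring
    rw [hneg, mul_pow, mul_pow, hb]
    have h5 : ∀ x : F, (x ^ q) ^ (q + 1) = x ^ (q + 1) := by
      intro x
      rw [← pow_mul, mul_comm, pow_mul, norm_fix hF]
    rw [h5, h5]
    rw [← mul_add, add_comm, ← hsdef]
    exact inv_mul_cancel₀ hs
  · simp only [hermForm, Fin.sum_univ_three, Matrix.cons_val_zero, Matrix.cons_val_one, Matrix.cons_val]
    have h0 : (0 : F) ^ q = 0 := zero_pow (by omega)
    have hneg : ∀ x : F, (-x) ^ q = -(x ^ q) := fun x => (frobHom hF).map_neg x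
    rw [h0, hneg, mul_pow, mul_pow, frob_frob hF, frob_frob hF]
    ring

include hF in
/-- Conversely: no orthogonal unit vector for an isotropic tail. -/
theorem not_perp_of_eq (w v : Fin 3 → F) (hs : w 1 ^ (q + 1) + w 2 ^ (q + 1) = 0)
    (hk : w 1 ≠ 0 ∨ w 2 ≠ 0) (hv : hermForm 3 F q v v = 1) (hv0 : v 0 = 0) (hwv : hermForm 3 F q w v = 0) : False := by
  have hq := two_le hF
  have h0 : (0 : F) ^ (q + 1) = 0 := zero_pow (by omega)
  have h00 : (0 : F) ^ q = 0 := zero_pow (by omega)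
  rw [herm_self, hv0, h0, zero_add] at hv
  simp only [hermForm, Fin.sum_univ_three, hv0, h00, mul_zero, zero_add] at hwv
  -- take norms
  have h1 : w 1 * v 1 ^ q = -(w 2 * v 2 ^ q) := by linear_combination hwv
  have h3 : (w 1 * v 1 ^ q) ^ (q + 1) = (w 2 * v 2 ^ q) ^ (q + 1) := by
    rw [h1]
    rw [pow_succ, pow_succ]
    have := (frobHom hF).map_neg (w 2 * v 2 ^ q)
    change (-(w 2 * v 2 ^ q)) ^ q = -((w 2 * v 2 ^ q) ^ q) at this
    rw [this]
    ring
  have h5 : ∀ x : F, (x ^ q) ^ (q + 1) = x ^ (q + 1) := by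
    intro x
    rw [← pow_mul, mul_comm, pow_mul, norm_fix hF]
  rw [mul_pow, mul_pow, h5, h5] at h3
  have h6 : w 1 ^ (q + 1) = - w 2 ^ (q + 1) := by linear_combination hs
  rw [h6] at h3
  have h7 : w 2 ^ (q + 1) * (v 1 ^ (q + 1) + v 2 ^ (q + 1)) = 0 := by linear_combination -h3
  rw [hv, mul_one] at h7
  have h8 : w 2 = 0 := pow_eq_zero_iff (by omega) |>.1 h7
  rw [h7, neg_zero] at h6
  have h9 : w 1 = 0 := pow_eq_zero_iff (by omega) |>.1 h6
  rcases hk with hk | hk
  · exact hk h9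
  · exact hk h8

include hF h2 in
theorem not_commute_iff (w : Fin 3 → F) (hw : hermForm 3 F q w w = 1) :
    ¬ Commute (t₀ hF) (refl hF w hw) ↔ w 0 ≠ 0 ∧ (w 1 ≠ 0 ∨ w 2 ≠ 0) := by
  rw [commute_t₀_iff hF h2]
  push Not
  constructor
  · rintro ⟨h1, h3⟩
    refine ⟨h3, ?_⟩
    by_cases h : w 1 = 0
    · exact Or.inr (h1 h)
    · exact Or.inl h
  · rintro ⟨h1, h3⟩
    refine ⟨fun h4 => ?_, h1⟩
    rcases h3 with h3 | h3
    · exact absurd h4 h3
    · exact h3

include hF h2 in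
/-- The middle class. -/
theorem exists_y_iff (w : Fin 3 → F) (hw : hermForm 3 F q w w = 1)
    (hnc : ¬ Commute (t₀ hF) (refl hF w hw)) :
    (∃ y : ↥(SU 3 F q), y ≠ 1 ∧ y * y = 1 ∧ Commute (t₀ hF) y ∧ Commute y (refl hF w hw)) ↔
      w 1 ^ (q + 1) + w 2 ^ (q + 1) ≠ 0 := by
  constructor
  · rintro ⟨y, hy1, hy2, hty, hyx⟩ hs
    obtain ⟨v, hv, rfl⟩ := exists_refl hF h2 y hy2 hy1
    have h1 := (commute_t₀_iff hF h2 v hv).1 hty
    have hvt : refl hF v hv ≠ t₀ hF := by
      intro h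
      apply hnc
      rw [← h]
      exact hyx
    have hv0 : v 0 = 0 := by
      rcases h1 with h1 | h1
      · exact absurd ((refl_eq_t₀_iff hF h2 v hv).2 h1) hvt
      · exact h1
    have h3 := (commute_refl_iff hF h2 v w hv hw).1 hyx
    have hwv : hermForm 3 F q w v = 0 := by
      rcases h3 with h3 | h3
      · exfalso
        apply hnc
        rw [← h3]
        exact hty
      · exact h3
    exact not_perp_of_eq hF w v hs ((not_commute_iff hF h2 w hw).1 hnc).2 hv hv0 hwv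
  · intro hs
    obtain ⟨v, hv, hv0, hwv⟩ := exists_perp_of_ne hF w hs
    refine ⟨refl hF v hv, refl_ne_one hF h2 v hv, refl_mul_self hF v hv, ?_, ?_⟩
    · exact (commute_t₀_iff hF h2 v hv).2 (Or.inr hv0)
    · exact (commute_refl_iff hF h2 v w hv hw).2 (Or.inr hwv)

section count

/-- Decomposition of the set of unit vectors. -/
noncomputable def unitEquiv (A : F → Prop) (B : (Fin 2 → F) → Prop) :
    {u : {u : Fin 3 → F // hermForm 3 F q u u = 1} // A (u.1 0) ∧ B (tail u.1)} ≃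
      Σ a : {a : F // A a}, {k : Fin 2 → F // hermForm 2 F q k k = 1 - a.1 ^ (q + 1) ∧ B k} where
  toFun u := ⟨⟨u.1.1 0, u.2.1⟩, ⟨tail u.1.1, by
    have h1 := u.1.2
    rw [herm_self] at h1
    rw [herm2_self]
    simp only [tail, Matrix.cons_val_zero, Matrix.cons_val_one]
    linear_combination h1, u.2.2⟩⟩
  invFun p := ⟨⟨![p.1.1, p.2.1 0, p.2.1 1], by
    have h1 := p.2.2.1
    rw [herm2_self] at h1
    rw [herm_self]
    simp only [Matrix.cons_val_zero, Matrix.cons_val_one, Matrix.cons_val]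
    linear_combination h1⟩, by
      refine ⟨p.1.2, ?_⟩
      have h3 : tail ![p.1.1, p.2.1 0, p.2.1 1] = p.2.1 := by
        ext i
        fin_cases i <;> rfl
      rw [h3]
      exact p.2.2.2⟩
  left_inv := by
    rintro ⟨⟨u, hu⟩, hu'⟩
    apply Subtype.ext
    apply Subtype.ext
    ext i
    fin_cases i <;> rfl
  right_inv := by
    rintro ⟨⟨a, ha⟩, ⟨k, hk⟩⟩
    have h3 : tail ![a, k 0, k 1] = k := by
      ext i
      fin_cases i <;> rfl
    simp only [Sigma.mk.injEq, Subtype.mk.injEq]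
    refine ⟨rfl, ?_⟩
    apply heq_of_eq
    apply Subtype.ext
    exact h3

/-- The count of unit vectors with prescribed first coordinate and tail. -/
theorem count_units (A : F → Prop) (B : (Fin 2 → F) → Prop) (c : ℕ)
    (hc : ∀ a, A a → Nat.card {k : Fin 2 → F // hermForm 2 F q k k = 1 - a ^ (q + 1) ∧ B k} = c) :
    Nat.card {u : {u : Fin 3 → F // hermForm 3 F q u u = 1} // A (u.1 0) ∧ B (tail u.1)} =
      Nat.card {a : F // A a} * c := by
  classical
  rw [Nat.card_congr (unitEquiv A B), Nat.card_sigma,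
    Finset.sum_congr rfl (fun a _ => hc a.1 a.2), Finset.sum_const, Finset.card_univ, smul_eq_mul,
    Nat.card_eq_fintype_card]

include hF in
/-- Vectors of a given non-zero norm in dimension two. -/
theorem card_norm_two (s : F) (hs : s ^ q = s) (hs0 : s ≠ 0) :
    Nat.card {k : Fin 2 → F // hermForm 2 F q k k = s} = q * (q ^ 2 - 1) := by
  have hq := two_le hF
  have h1 := Cfsg.Agent.Lib.Classical.HermOrders.card_norm_succ hF 1 s hs
  have h3 := Cfsg.Agent.Lib.Classical.HermOrders.card_norm_succ hF 0 s hs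
  have h4 : Nat.card {v : Fin 0 → F // hermForm 0 F q v v = s} = 0 := by
    have : IsEmpty {v : Fin 0 → F // hermForm 0 F q v v = s} := ⟨fun x => by
      have := x.2
      simp [hermForm] at this
      exact hs0 this.symm⟩
    exact Nat.card_of_isEmpty
  rw [h4] at h3
  simp only [Nat.cast_zero, mul_zero, sub_zero, pow_zero, mul_one] at h3
  norm_num at h1 h3
  rw [h3] at h1
  have hq1 : 1 ≤ q ^ 2 := Nat.one_le_pow _ _ (by omega)
  zify [hq1]
  rw [h1]
  ring

theorem card_eq_zero_vec [DecidableEq F] (a : F) : Nat.card {x : F // x = a} = 1 := by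
  exact Nat.card_unique

include hF in
/-- The number of `a` with norm different from `0`, `1`. -/
theorem card_middle : Nat.card {a : F // a ≠ 0 ∧ a ^ (q + 1) ≠ 1} = (q + 1) * (q - 2) := by
  classical
  have hq := two_le hF
  have h1 := card_norm_fiber hF (1 : F) (one_pow _) one_ne_zero
  have h3 : Nat.card {a : F // a ≠ 0 ∧ a ^ (q + 1) ≠ 1} + (Nat.card {a : F // a ^ (q + 1) = 1} + 1) = q ^ 2 := by
    rw [Nat.card_eq_fintype_card, Nat.card_eq_fintype_card, ← hF, Fintype.card_subtype, Fintype.card_subtype]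
    rw [← Finset.card_univ, ← Finset.card_erase_add_one (Finset.mem_univ (0 : F))]
    have hsplit := Finset.card_filter_add_card_filter_not (s := (Finset.univ : Finset F).erase 0)
      (fun a : F => a ^ (q + 1) = 1)
    have hA : ((Finset.univ : Finset F).erase 0).filter (fun a : F => a ^ (q + 1) = 1) =
        Finset.univ.filter (fun a : F => a ^ (q + 1) = 1) := by
      ext a
      simp only [Finset.mem_filter, Finset.mem_erase, Finset.mem_univ, and_true, true_and, ne_eq]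
      constructor
      · exact fun h => h.2
      · intro h
        refine ⟨?_, h⟩
        rintro rfl
        rw [zero_pow (by omega)] at h
        exact zero_ne_one h
    have hB : ((Finset.univ : Finset F).erase 0).filter (fun a : F => ¬ a ^ (q + 1) = 1) =
        Finset.univ.filter (fun a : F => a ≠ 0 ∧ a ^ (q + 1) ≠ 1) := by
      ext a
      simp only [Finset.mem_filter, Finset.mem_erase, Finset.mem_univ, and_true, true_and, ne_eq]
    rw [hA, hB] at hsplit
    omega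
  rw [h1] at h3
  have h4 : (q + 1) * (q - 2) + (q + 1 + 1) = q ^ 2 := by
    obtain ⟨r, rfl⟩ : ∃ r, q = r + 2 := ⟨q - 2, by omega⟩
    simp only [Nat.add_sub_cancel]
    ring
  omega

include hF h2 in
/-- First count. -/
theorem count_one :
    Nat.card {x : ↥(SU 3 F q) // x ≠ 1 ∧ x * x = 1 ∧ x ≠ t₀ hF ∧ Commute (t₀ hF) x} = q * (q - 1) := by
  have hq := two_le hF
  have h1 := card_fibers hF h2 (fun x => x ≠ t₀ hF ∧ Commute (t₀ hF) x)
  have h3 : Nat.card {u : {u : Fin 3 → F // hermForm 3 F q u u = 1} //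
      refl hF u.1 u.2 ≠ t₀ hF ∧ Commute (t₀ hF) (refl hF u.1 u.2)} =
      Nat.card {u : {u : Fin 3 → F // hermForm 3 F q u u = 1} // u.1 0 = 0 ∧ (fun _ => True) (tail u.1)} := by
    apply Nat.card_congr
    apply Equiv.subtypeEquivRight
    intro u
    rw [r1_iff hF h2]
    simp
  have h4 := count_units (q := q) (fun a : F => a = 0) (fun _ => True) (q * (q ^ 2 - 1)) (by
    intro a ha
    subst ha
    have h5 := Cfsg.Agent.Lib.Classical.HermOrders.card_norm_one hF 1
    have h6 : Nat.card {k : Fin 2 → F // hermForm 2 F q k k = 1 - 0 ^ (q + 1) ∧ True} =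
        Nat.card {k : Fin 2 → F // hermForm 2 F q k k = 1} := by
      apply Nat.card_congr
      apply Equiv.subtypeEquivRight
      intro k
      rw [zero_pow (by omega)]
      simp
    rw [h6]
    simpa using h5)
  rw [h3, h4, Nat.card_unique, one_mul] at h1
  have h7 : q * (q ^ 2 - 1) = q * (q - 1) * (q + 1) := by
    obtain ⟨r, rfl⟩ : ∃ r, q = r + 1 := ⟨q - 1, by omega⟩
    have : (r + 1) ^ 2 - 1 = r * (r + 2) := by
      have : (r + 1) ^ 2 = r * (r + 2) + 1 := by ring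
      omega
    rw [this]
    simp only [Nat.add_sub_cancel]
    ring
  rw [h7] at h1
  exact (Nat.eq_of_mul_eq_mul_right (by omega) h1).symm

include hF h2 in
/-- Second count. -/
theorem count_two :
    Nat.card {x : ↥(SU 3 F q) // x ≠ 1 ∧ x * x = 1 ∧ ¬ Commute (t₀ hF) x ∧
      ∃ y : ↥(SU 3 F q), y ≠ 1 ∧ y * y = 1 ∧ Commute (t₀ hF) y ∧ Commute y x} = q * (q - 2) * (q ^ 2 - 1) := by
  have hq := two_le hF
  have h1 := card_fibers hF h2 (fun x => ¬ Commute (t₀ hF) x ∧
      ∃ y : ↥(SU 3 F q), y ≠ 1 ∧ y * y = 1 ∧ Commute (t₀ hF) y ∧ Commute y x)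
  have hchar : ∀ (w : Fin 3 → F) (hw : hermForm 3 F q w w = 1),
      (¬ Commute (t₀ hF) (refl hF w hw) ∧
        ∃ y : ↥(SU 3 F q), y ≠ 1 ∧ y * y = 1 ∧ Commute (t₀ hF) y ∧ Commute y (refl hF w hw)) ↔
      w 0 ≠ 0 ∧ w 0 ^ (q + 1) ≠ 1 := by
    intro w hw
    have hs : w 1 ^ (q + 1) + w 2 ^ (q + 1) ≠ 0 ↔ w 0 ^ (q + 1) ≠ 1 := by
      rw [herm_self] at hw
      constructor
      · intro h h'
        apply h
        linear_combination hw - h'
      · intro h h'
        apply h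
        linear_combination hw - h'
    constructor
    · rintro ⟨hnc, hy⟩
      exact ⟨((not_commute_iff hF h2 w hw).1 hnc).1, hs.1 ((exists_y_iff hF h2 w hw hnc).1 hy)⟩
    · rintro ⟨h0, h3⟩
      have hs' := hs.2 h3
      have hnc : ¬ Commute (t₀ hF) (refl hF w hw) := by
        rw [not_commute_iff hF h2]
        refine ⟨h0, ?_⟩
        by_contra hcon
        push Not at hcon
        apply hs'
        rw [hcon.1, hcon.2, zero_pow (by omega), add_zero]
      exact ⟨hnc, (exists_y_iff hF h2 w hw hnc).2 hs'⟩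
  have h3 : Nat.card {u : {u : Fin 3 → F // hermForm 3 F q u u = 1} //
      ¬ Commute (t₀ hF) (refl hF u.1 u.2) ∧
        ∃ y : ↥(SU 3 F q), y ≠ 1 ∧ y * y = 1 ∧ Commute (t₀ hF) y ∧ Commute y (refl hF u.1 u.2)} =
      Nat.card {u : {u : Fin 3 → F // hermForm 3 F q u u = 1} //
        (fun a : F => a ≠ 0 ∧ a ^ (q + 1) ≠ 1) (u.1 0) ∧ (fun _ => True) (tail u.1)} := by
    apply Nat.card_congr
    apply Equiv.subtypeEquivRight
    intro u
    rw [hchar]
    simp
  have h4 := count_units (q := q) (fun a : F => a ≠ 0 ∧ a ^ (q + 1) ≠ 1) (fun _ => True) (q * (q ^ 2 - 1)) (by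
    rintro a ⟨ha0, ha1⟩
    have hs0 : 1 - a ^ (q + 1) ≠ 0 := sub_ne_zero.2 (Ne.symm ha1)
    have hsq : (1 - a ^ (q + 1)) ^ q = 1 - a ^ (q + 1) := by
      have h5 := (frobHom hF).map_sub 1 (a ^ (q + 1))
      change (1 - a ^ (q + 1)) ^ q = 1 ^ q - (a ^ (q + 1)) ^ q at h5
      rw [h5, one_pow, norm_fix hF]
    have h6 := card_norm_two hF _ hsq hs0
    rw [← h6]
    apply Nat.card_congr
    apply Equiv.subtypeEquivRight
    intro k
    simp)
  rw [h3, h4, card_middle hF] at h1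
  have h7 : (q + 1) * (q - 2) * (q * (q ^ 2 - 1)) = (q * (q - 2) * (q ^ 2 - 1)) * (q + 1) := by ring
  rw [h7] at h1
  exact (Nat.eq_of_mul_eq_mul_right (by omega) h1).symm

include hF h2 in
/-- Third count. -/
theorem count_three :
    Nat.card {x : ↥(SU 3 F q) // x ≠ 1 ∧ x * x = 1 ∧ ¬ Commute (t₀ hF) x ∧
      ∀ y : ↥(SU 3 F q), y ≠ 1 → y * y = 1 → ¬ (Commute (t₀ hF) y ∧ Commute y x)} = (q + 1) * (q ^ 2 - 1) := by
  classical
  have hq := two_le hF
  have h1 := card_fibers hF h2 (fun x => ¬ Commute (t₀ hF) x ∧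
      ∀ y : ↥(SU 3 F q), y ≠ 1 → y * y = 1 → ¬ (Commute (t₀ hF) y ∧ Commute y x))
  have hchar : ∀ (w : Fin 3 → F) (hw : hermForm 3 F q w w = 1),
      (¬ Commute (t₀ hF) (refl hF w hw) ∧
        ∀ y : ↥(SU 3 F q), y ≠ 1 → y * y = 1 → ¬ (Commute (t₀ hF) y ∧ Commute y (refl hF w hw))) ↔
      w 0 ^ (q + 1) = 1 ∧ tail w ≠ 0 := by
    intro w hw
    have hs : w 1 ^ (q + 1) + w 2 ^ (q + 1) = 0 ↔ w 0 ^ (q + 1) = 1 := by
      rw [herm_self] at hw
      constructor
      · intro h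
        linear_combination hw - h
      · intro h
        linear_combination hw - h
    have htail : tail w ≠ 0 ↔ (w 1 ≠ 0 ∨ w 2 ≠ 0) := by
      constructor
      · intro h
        by_contra hcon
        push Not at hcon
        apply h
        ext i
        fin_cases i
        · exact hcon.1
        · exact hcon.2
      · rintro h h'
        have h0 := congrFun h' 0
        have h1' := congrFun h' 1
        simp only [tail, Matrix.cons_val_zero, Matrix.cons_val_one, Pi.zero_apply] at h0 h1'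
        rcases h with h | h
        · exact h h0
        · exact h h1'
    constructor
    · rintro ⟨hnc, hy⟩
      have h3 := (not_commute_iff hF h2 w hw).1 hnc
      refine ⟨?_, htail.2 h3.2⟩
      apply hs.1
      by_contra hne
      obtain ⟨y, hy1, hy2, hty, hyx⟩ := (exists_y_iff hF h2 w hw hnc).2 hne
      exact hy y hy1 hy2 ⟨hty, hyx⟩
    · rintro ⟨h0, h3⟩
      have h3' := htail.1 h3
      have hnc : ¬ Commute (t₀ hF) (refl hF w hw) := by
        rw [not_commute_iff hF h2]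
        refine ⟨?_, h3'⟩
        intro h4
        rw [h4, zero_pow (by omega)] at h0
        exact zero_ne_one h0
      refine ⟨hnc, ?_⟩
      intro y hy1 hy2 hc
      exact (exists_y_iff hF h2 w hw hnc).1 ⟨y, hy1, hy2, hc.1, hc.2⟩ (hs.2 h0)
  have h3 : Nat.card {u : {u : Fin 3 → F // hermForm 3 F q u u = 1} //
      ¬ Commute (t₀ hF) (refl hF u.1 u.2) ∧
        ∀ y : ↥(SU 3 F q), y ≠ 1 → y * y = 1 → ¬ (Commute (t₀ hF) y ∧ Commute y (refl hF u.1 u.2))} =
      Nat.card {u : {u : Fin 3 → F // hermForm 3 F q u u = 1} //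
        (fun a : F => a ^ (q + 1) = 1) (u.1 0) ∧ (fun k : Fin 2 → F => k ≠ 0) (tail u.1)} := by
    apply Nat.card_congr
    apply Equiv.subtypeEquivRight
    intro u
    rw [hchar]
  have h4 := count_units (q := q) (fun a : F => a ^ (q + 1) = 1) (fun k : Fin 2 → F => k ≠ 0) ((q ^ 2 - 1) * (q + 1)) (by
    intro a ha
    have h5 := Cfsg.Agent.Lib.Classical.HermOrders.card_norm_zero' hF 2
    norm_num at h5
    have h6 : Nat.card {k : Fin 2 → F // hermForm 2 F q k k = 1 - a ^ (q + 1) ∧ k ≠ 0} + 1 =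
        Nat.card {k : Fin 2 → F // hermForm 2 F q k k = 0} := by
      rw [ha, sub_self, Nat.card_eq_fintype_card, Nat.card_eq_fintype_card, Fintype.card_subtype,
        Fintype.card_subtype]
      have hmem : (0 : Fin 2 → F) ∈ Finset.univ.filter (fun k : Fin 2 → F => hermForm 2 F q k k = 0) := by
        simp only [Finset.mem_filter, Finset.mem_univ, true_and]
        exact (herm_space (F := F) 2 hF).zero_left 0
      rw [← Finset.card_erase_add_one hmem]
      congr 2
      ext k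
      simp only [Finset.mem_filter, Finset.mem_erase, Finset.mem_univ, true_and]
      tauto
    have h5' : Nat.card {k : Fin 2 → F // hermForm 2 F q k k = 0} = (q ^ 2 - 1) * (q + 1) + 1 := by
      rw [Nat.card_eq_fintype_card]
      convert h5
    rw [h5'] at h6
    omega)
  rw [h3, h4, card_norm_fiber hF (1 : F) (one_pow _) one_ne_zero] at h1
  have h7 : (q + 1) * ((q ^ 2 - 1) * (q + 1)) = ((q + 1) * (q ^ 2 - 1)) * (q + 1) := by ring
  rw [h7] at h1
  exact (Nat.eq_of_mul_eq_mul_right (by omega) h1).symm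

end count

section conn

include hF in
/-- A unit vector orthogonal to two given ones. -/
theorem exists_perp_general (u w : Fin 3 → F) (hu : hermForm 3 F q u u = 1) (hw : hermForm 3 F q w w = 1)
    (hn : hermForm 3 F q w u ^ (q + 1) ≠ 1) :
    ∃ r : Fin 3 → F, hermForm 3 F q r r = 1 ∧ hermForm 3 F q r u = 0 ∧ hermForm 3 F q w r = 0 := by
  obtain ⟨P, hP⟩ := exists_su_first hF u hu
  set w' : Fin 3 → F := ((P⁻¹).1.1 : Matrix (Fin 3) (Fin 3) F) *ᵥ w with hw'
  have hPw' : (P.1.1 : Matrix (Fin 3) (Fin 3) F) *ᵥ w' = w := su_inv_apply P w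
  have hw'w' : hermForm 3 F q w' w' = 1 := by
    rw [← su_isom P, hPw', hw]
  have h0 : w' 0 = hermForm 3 F q w u := by
    have h00 := herm_e₀_right (q := q) hF w'
    rw [← h00, ← su_isom P, hPw', hP]
  have hs : w' 1 ^ (q + 1) + w' 2 ^ (q + 1) ≠ 0 := by
    intro h
    apply hn
    rw [← h0]
    rw [herm_self] at hw'w'
    linear_combination hw'w' - h
  obtain ⟨v, hv, hv0, hwv⟩ := exists_perp_of_ne hF w' hs
  refine ⟨(P.1.1 : Matrix (Fin 3) (Fin 3) F) *ᵥ v, ?_, ?_, ?_⟩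
  · rw [su_isom, hv]
  · rw [← hP, su_isom, herm_e₀_right hF, hv0]
  · rw [← hPw', su_isom, hwv]

include hF h2 in
/-- Any two involutions are at distance at most three. -/
theorem path_t₀ (x : ↥(SU 3 F q)) (hx : x ≠ 1) (hx2 : x * x = 1) :
    ∃ y z : ↥(SU 3 F q), y ≠ 1 ∧ y * y = 1 ∧ z ≠ 1 ∧ z * z = 1 ∧
      Commute (t₀ hF) y ∧ Commute y z ∧ Commute z x := by
  have S := herm_space (F := F) 3 hF
  have hq := two_le hF
  obtain ⟨w, hw, rfl⟩ := exists_refl hF h2 x hx2 hx
  have hz0 : (0 : F) ^ (q + 1) = 0 := zero_pow (by omega)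
  have hz00 : (0 : F) ^ q = 0 := zero_pow (by omega)
  -- the three coordinate vectors
  have hcoord : ∀ i : Fin 3, hermForm 3 F q (Pi.single i 1 : Fin 3 → F) (Pi.single i 1) = 1 ∧
      hermForm 3 F q w (Pi.single i 1) = w i := by
    intro i
    constructor
    · fin_cases i <;> simp [hermForm, Fin.sum_univ_three, hz00]
    · fin_cases i <;> simp [hermForm, Fin.sum_univ_three, hz00]
  have hall : ∃ i : Fin 3, w i ^ (q + 1) ≠ 1 := by
    by_contra hcon
    push Not at hcon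
    rw [herm_self, hcon 0, hcon 1, hcon 2] at hw
    apply h2
    linear_combination hw
  obtain ⟨i, hi⟩ := hall
  have hzero : ∀ j : Fin 3, j ≠ 0 → hermForm 3 F q (Pi.single j 1 : Fin 3 → F) e₀ = 0 := by
    intro j hj
    rw [herm_e₀_right hF]
    simp [hj.symm]
  obtain ⟨r, hr, hri, hwr⟩ := exists_perp_general hF (Pi.single i 1) w (hcoord i).1 hw (by
    rw [(hcoord i).2]
    exact hi)
  by_cases hi0 : i = 0
  · subst hi0
    have hr0 : r 0 = 0 := by
      have : hermForm 3 F q r (Pi.single 0 1) = r 0 := by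
        simp [hermForm, Fin.sum_univ_three, hz00]
      rw [← this]
      exact hri
    refine ⟨refl hF r hr, refl hF r hr, refl_ne_one hF h2 r hr, refl_mul_self hF r hr, refl_ne_one hF h2 r hr,
      refl_mul_self hF r hr, (commute_t₀_iff hF h2 r hr).2 (Or.inr hr0), Commute.refl _, ?_⟩
    exact (commute_refl_iff hF h2 r w hr hw).2 (Or.inr hwr)
  · refine ⟨refl hF (Pi.single i 1) (hcoord i).1, refl hF r hr, refl_ne_one hF h2 _ _, refl_mul_self hF _ _,
      refl_ne_one hF h2 r hr, refl_mul_self hF r hr, ?_, ?_, ?_⟩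
    · apply (commute_t₀_iff hF h2 _ _).2 (Or.inr ?_)
      simp [Ne.symm hi0]
    · exact (commute_refl_iff hF h2 _ r _ hr).2 (Or.inr hri)
    · exact (commute_refl_iff hF h2 r w hr hw).2 (Or.inr hwr)

end conn

section transport

variable {G : Type*} [Group G] (φ : G ≃* G)

theorem comm_map (a b : G) : Commute (φ a) (φ b) ↔ Commute a b := by
  constructor
  · intro h
    apply φ.injective
    rw [map_mul, map_mul]
    exact h.eq
  · intro h
    show φ a * φ b = φ b * φ a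
    rw [← map_mul, ← map_mul, h.eq]

theorem inv_map (x : G) : (φ x ≠ 1 ∧ φ x * φ x = 1) ↔ (x ≠ 1 ∧ x * x = 1) := by
  rw [← map_mul, map_eq_one_iff φ φ.injective, Ne, map_eq_one_iff φ φ.injective]

theorem transport_one (t : G) :
    Nat.card {x : G // x ≠ 1 ∧ x * x = 1 ∧ x ≠ φ t ∧ Commute (φ t) x} =
      Nat.card {x : G // x ≠ 1 ∧ x * x = 1 ∧ x ≠ t ∧ Commute t x} := by
  symm
  apply Nat.card_congr
  refine Equiv.subtypeEquiv φ.toEquiv (fun x => ?_)
  have h1 := inv_map φ x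
  have h3 := comm_map φ t x
  simp only [MulEquiv.toEquiv_eq_coe, EquivLike.coe_coe, Ne, EmbeddingLike.apply_eq_iff_eq] at *
  tauto

theorem exists_map (t x : G) :
    (∃ y : G, y ≠ 1 ∧ y * y = 1 ∧ Commute (φ t) y ∧ Commute y (φ x)) ↔
      (∃ y : G, y ≠ 1 ∧ y * y = 1 ∧ Commute t y ∧ Commute y x) := by
  rw [φ.surjective.exists]
  apply exists_congr
  intro y
  have h1 := inv_map φ y
  have h3 := comm_map φ t y
  have h4 := comm_map φ y x
  tauto

theorem transport_two (t : G) :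
    Nat.card {x : G // x ≠ 1 ∧ x * x = 1 ∧ ¬ Commute (φ t) x ∧
        ∃ y : G, y ≠ 1 ∧ y * y = 1 ∧ Commute (φ t) y ∧ Commute y x} =
      Nat.card {x : G // x ≠ 1 ∧ x * x = 1 ∧ ¬ Commute t x ∧
        ∃ y : G, y ≠ 1 ∧ y * y = 1 ∧ Commute t y ∧ Commute y x} := by
  symm
  apply Nat.card_congr
  refine Equiv.subtypeEquiv φ.toEquiv (fun x => ?_)
  have h1 := inv_map φ x
  have h3 := comm_map φ t x
  have h4 := exists_map φ t x
  simp only [MulEquiv.toEquiv_eq_coe, EquivLike.coe_coe] at *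
  constructor
  · rintro ⟨a, b, c, d⟩
    obtain ⟨a', b'⟩ := h1.2 ⟨a, b⟩
    exact ⟨a', b', fun h => c (h3.1 h), h4.2 d⟩
  · rintro ⟨a, b, c, d⟩
    obtain ⟨a', b'⟩ := h1.1 ⟨a, b⟩
    exact ⟨a', b', fun h => c (h3.2 h), h4.1 d⟩

theorem transport_three (t : G) :
    Nat.card {x : G // x ≠ 1 ∧ x * x = 1 ∧ ¬ Commute (φ t) x ∧
        ∀ y : G, y ≠ 1 → y * y = 1 → ¬ (Commute (φ t) y ∧ Commute y x)} =
      Nat.card {x : G // x ≠ 1 ∧ x * x = 1 ∧ ¬ Commute t x ∧
        ∀ y : G, y ≠ 1 → y * y = 1 → ¬ (Commute t y ∧ Commute y x)} := by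
  symm
  apply Nat.card_congr
  refine Equiv.subtypeEquiv φ.toEquiv (fun x => ?_)
  have h1 := inv_map φ x
  have h3 := comm_map φ t x
  have h4 := exists_map φ t x
  simp only [MulEquiv.toEquiv_eq_coe, EquivLike.coe_coe] at *
  have h5 : (∀ y : G, y ≠ 1 → y * y = 1 → ¬ (Commute t y ∧ Commute y x)) ↔
      ¬ ∃ y : G, y ≠ 1 ∧ y * y = 1 ∧ Commute t y ∧ Commute y x :=
    ⟨fun h ⟨y, a, b, c, d⟩ => h y a b ⟨c, d⟩, fun h y a b ⟨c, d⟩ => h ⟨y, a, b, c, d⟩⟩
  have h6 : (∀ y : G, y ≠ 1 → y * y = 1 → ¬ (Commute (φ t) y ∧ Commute y (φ x))) ↔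
      ¬ ∃ y : G, y ≠ 1 ∧ y * y = 1 ∧ Commute (φ t) y ∧ Commute y (φ x) :=
    ⟨fun h ⟨y, a, b, c, d⟩ => h y a b ⟨c, d⟩, fun h y a b ⟨c, d⟩ => h ⟨y, a, b, c, d⟩⟩
  rw [h5, h6, h4]
  constructor
  · rintro ⟨a, b, c, d⟩
    obtain ⟨a', b'⟩ := h1.2 ⟨a, b⟩
    exact ⟨a', b', fun h => c (h3.1 h), d⟩
  · rintro ⟨a, b, c, d⟩
    obtain ⟨a', b'⟩ := h1.1 ⟨a, b⟩
    exact ⟨a', b', fun h => c (h3.2 h), d⟩

end transport

end Cfsg.Agent.Lib.Witt.SU3Graph
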